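import Cfsg.Agent.H561.D4.Two

/-!
# S4311, the row `PΩ₈⁺(q)`: the statements of the boxes C1, C2, D2, D3, D4, N, Z (helper561)
-/

set_option autoImplicit false
set_option linter.unusedSectionVars false

namespace Cfsg.Agent.H561.D4

open Module QuadraticMap Cfsg.Agent.H167.OP Cfsg.Agent.H170.HL Cfsg.Agent.H170.HL.OmRow Cfsg.Agent.H556.Om
open Cfsg Subgroup Cfsg.Agent.H485.RV Cfsg.Agent.H561.RV

universe u

variable {F : Type} [Field F] {ι : Type} [Fintype ι] [DecidableEq ι] {Q : QuadraticForm F (ι → F)}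
  {E : Fin 2 × A4 → ι → F}

/-- **BOX C1** -/
def BoxC1 (Q : QuadraticForm F (ι → F)) : Prop :=
  ∀ H : Subgroup (Cfsg.Omega F (⇑Q)), HD H → ¬ NTwo H →
    ∃ T : Subgroup (H.map (QuotientGroup.mk' (Subgroup.center (Cfsg.Omega F (⇑Q))))),
      T.Normal ∧ IsSimpleGroup T ∧ ¬ IsMulCommutative T ∧ ∀ g, (∀ t ∈ T, g * t = t * g) → g = 1

/-- **BOX C2** (no orthogonal groups: the list in degree `8` and the numbers) -/
def BoxC2 (F : Type) [Field F] : Prop :=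
  ∀ (X : Type) [Group X] [Finite X] (T : Subgroup X), T.Normal → IsSimpleGroup T → ¬ IsMulCommutative T →
    (∀ g : X, (∀ t ∈ T, g * t = t * g) → g = 1) → (Nat.card X : F) ≠ 0 →
    (∃ b, 3 ≤ b ∧ (Nat.card X).factorization 2 = 4 * b) →
    (∃ a, 1 ≤ a ∧ (Nat.card X).factorization 3 = 4 * a + 1) →
    (∃ (L : Type) (_ : Group L) (f : L →* T) (ρ : L →* Matrix.GeneralLinearGroup (Fin 8) F), Function.Surjective f ∧
      (∀ x, f x = 1 → ∀ y, x * y = y * x) ∧ Nat.card f.ker = 2 ∧ Function.Injective ρ) →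
    Nonempty (X ≃* Cfsg.POmega (ZMod 2) (Cfsg.quadFormPlus 4 (ZMod 2)))

/-- **BOX N**: the 2-part and the 3-part of `|PΩ₈⁺(q)|` -/
def BoxN (Q : QuadraticForm F (ι → F)) : Prop :=
  ∃ a b, 1 ≤ a ∧ 3 ≤ b ∧ (Nat.card (Cfsg.Omega F (⇑Q))).factorization 2 = 4 * b + 1 ∧
    (Nat.card (Cfsg.Omega F (⇑Q))).factorization 3 = 4 * a + 1 ∧
    3 ^ a ∣ (Nat.card F) ^ 2 - 1 ∧ ¬ 3 ^ (a + 1) ∣ (Nat.card F) ^ 2 - 1

/-- `-1` on the first block -/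
def s0 (F : Type) [Field F] (j : Fin 2 × A4) : F := if j.1 = 0 then -1 else 1

/-- `z` is the element `-1` on the first block, `1` on the second -/
def IsZ (Q : QuadraticForm F (ι → F)) (E : Fin 2 × A4 → ι → F) (z : Cfsg.Omega F (⇑Q)) : Prop :=
  rep (inc (⇑Q)) z = mono (polarBilin Q) E (s0 F) id

/-- **BOX Z**: the centre of `PM / Z` is generated by `z` -/
def BoxZ (Q : QuadraticForm F (ι → F)) : Prop :=
  ∀ (h : Q8 Q) (E : Fin 2 × A4 → ι → F) (hF : Frame (polarBilin Q) E), (∃ z, IsZ Q E z) ∧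
    ∀ z g : Cfsg.Omega F (⇑Q), IsZ Q E z →
      (∀ x ∈ PM h.two hF, g * x * g⁻¹ * x⁻¹ ∈ Subgroup.center (Cfsg.Omega F (⇑Q))) →
      g ∈ Subgroup.center (Cfsg.Omega F (⇑Q)) ∨ g * z⁻¹ ∈ Subgroup.center (Cfsg.Omega F (⇑Q))

/-- the hypotheses of BOX D2 -/
structure LL {S : Type u} [Group S] (P : Subgroup S) (L : Fin 4 → Subgroup S) : Prop where
  comm : ∀ i j, i ≠ j → ∀ x ∈ L i, ∀ y ∈ L j, x * y = y * x
  inj : Function.Injective L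
  perm : ∀ g ∈ P, ∀ i, ∃ j, (L i).map (MulAut.conj g).toMonoidHom = L j
  trans : ∀ i, ∃ g ∈ P, (L 0).map (MulAut.conj g).toMonoidHom = L i
  reg : ∀ g ∈ P, (L 0).map (MulAut.conj g).toMonoidHom = L 0 → ∀ i, (L i).map (MulAut.conj g).toMonoidHom = L i
  syl : ∀ i, ¬ 2 ∣ (P ⊓ L i).relIndex (L i)
  three : ∀ i, (P ⊓ L i).relIndex (normalizer ((P ⊓ L i : Subgroup S) : Set S) ⊓ L i) ∣ 3
  disj : ∀ i, ∀ x ∈ L i, x ∈ ⨆ j : {j // j ≠ i}, L j.1 → ∃ k, x ^ 2 ^ k = 1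
  inter : ∀ x ∈ P, x ∈ ⨆ i, L i → x ∈ ⨆ i, P ⊓ L i

/-- **BOX D2** -/
def BoxD2 (S : Type u) [Group S] : Prop :=
  ∀ (P : Sylow 2 S) (L : Fin 4 → Subgroup S), LL (P : Subgroup S) L →
    {M : Subgroup S | (P : Subgroup S) ≤ M ∧ (P : Subgroup S).relIndex M = 3 ∧
      M ≤ (P : Subgroup S) ⊔ ⨆ i, L i}.encard ≤ 4

/-- the image of `PM` in `PΩ` -/
noncomputable def PMS (h2 : (2 : F) ≠ 0) (hF : Frame (polarBilin Q) E) : Subgroup (Cfsg.POmega F (⇑Q)) :=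
  (PM h2 hF).map (QuotientGroup.mk' (Subgroup.center (Cfsg.Omega F (⇑Q))))

/-- **BOX D3** -/
def BoxD3 (Q : QuadraticForm F (ι → F)) : Prop :=
  ∀ (h : Q8 Q) (E : Fin 2 × A4 → ι → F) (hF : Frame (polarBilin Q) E) (z : Cfsg.Omega F (⇑Q)), IsZ Q E z →
    ¬ 2 ^ 14 ∣ Nat.card (Cfsg.Omega F (⇑Q)) →
    ∃ L : Fin 4 → Subgroup (Cfsg.POmega F (⇑Q)), LL (PMS h.two hF) L ∧
      ∀ y : Cfsg.POmega F (⇑Q), y ^ 3 = 1 → y * QuotientGroup.mk z = QuotientGroup.mk z * y → y ∈ ⨆ i, L i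

/-- **BOX D4** -/
def BoxD4 (Q : QuadraticForm F (ι → F)) : Prop :=
  ∀ (h : Q8 Q) (E : Fin 2 × A4 → ι → F) (hF : Frame (polarBilin Q) E) (z : Cfsg.Omega F (⇑Q)), IsZ Q E z →
    ¬ 2 ^ 14 ∣ Nat.card (Cfsg.Omega F (⇑Q)) → (MN (PMS h.two hF) (QuotientGroup.mk z : Cfsg.POmega F (⇑Q))).encard ≤ 1

end Cfsg.Agent.H561.D4
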