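import Cfsg.Agent.H485.RV.Row
import Cfsg.Agent.H561.RV.Defs

/-!
# S4311, the row `PΩ₈⁺(q)`, `2, 3 ∈ π`, `p ∉ π`: definitions (helper561)

`G = Cfsg.Omega F Q`, `dim V = 8`, plus type, with an orthonormal frame `E : Fin 2 × A4 → V` (helper556's `Frame`:
`B(e,e) = 2`, i.e. `Q(e) = 1`); `H ≤ G` is the preimage of a Hall `π`-subgroup of `PΩ`.
The plan with complete paper proofs: `tools/plans/S4311_D4.md`.
-/

set_option autoImplicit false
set_option linter.unusedSectionVars false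

namespace Cfsg.Agent.H561.D4

open Module QuadraticMap Cfsg.Agent.H167.OP Cfsg.Agent.H170.HL Cfsg.Agent.H170.HL.OmRow Cfsg.Agent.H556.Om
open Cfsg Subgroup Cfsg.Agent.H485.RV Cfsg.Agent.H561.RV

universe u

variable {F : Type} [Field F] {ι : Type} [Fintype ι] [DecidableEq ι] {Q : QuadraticForm F (ι → F)}

/-- the standing hypotheses on the form -/
structure Q8 (Q : QuadraticForm F (ι → F)) : Prop where
  two : (2 : F) ≠ 0
  three : (3 : F) ≠ 0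
  gq : GoodQ Q
  dim : Fintype.card ι = 8
  frame : ∃ E : Fin 2 × A4 → ι → F, Frame (polarBilin Q) E
  /-- `|PΩ| = q¹² (q² - 1) (q⁴ - 1)² (q⁶ - 1) / 4` (the order of `PΩ₈⁺(q)`, `q` odd) -/
  card : ∀ [Finite F], Nat.card (Cfsg.Omega F (⇑Q)) * 2 =
    (Nat.card F) ^ 12 * ((Nat.card F) ^ 2 - 1) * ((Nat.card F) ^ 4 - 1) ^ 2 * ((Nat.card F) ^ 6 - 1)

/-- the standing hypotheses on the subgroup `H ≤ Ω` (preimage of a Hall `π`-subgroup of `PΩ`, `2, 3 ∈ π`, `p ∉ π`) -/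
structure HD (H : Subgroup (Cfsg.Omega F (⇑Q))) : Prop where
  q8 : Q8 Q
  /-- `p ∤ |H|` -/
  char : (Nat.card H : F) ≠ 0
  hall : (Nat.card H).Coprime H.index
  two : 2 ∣ Nat.card H
  three : 3 ∣ Nat.card H
  cen : Subgroup.center (Cfsg.Omega F (⇑Q)) ≤ H

/-- four mutually orthogonal planes, each the support of an element of order `3` -/
structure Dec (Q : QuadraticForm F (ι → F)) (U : Fin 4 → Submodule F (ι → F)) : Prop where
  orth : ∀ i j, i ≠ j → ∀ u ∈ U i, ∀ v ∈ U j, polarBilin Q u v = 0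
  rank : ∀ i, Module.finrank F (U i) = 2
  top : ⨆ i, U i = ⊤
  typ : ∀ i, ∃ x : Cfsg.Omega F (⇑Q), x ^ 3 = 1 ∧ x ≠ 1 ∧ LinearMap.range (rep (inc (⇑Q)) x - 1) = U i

/-- the stabiliser of a decomposition -/
def StD (Q : QuadraticForm F (ι → F)) (U : Fin 4 → Submodule F (ι → F)) : Subgroup (Cfsg.Omega F (⇑Q)) where
  carrier := {g | (∀ i, ∃ j, (U i).map (rep (inc (⇑Q)) g) = U j) ∧ ∀ i, ∃ j, (U i).map (rep (inc (⇑Q)) g⁻¹) = U j}
  one_mem' := by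
    refine ⟨fun i => ⟨i, ?_⟩, fun i => ⟨i, ?_⟩⟩
    · rw [map_one]; exact Submodule.map_id _
    · rw [inv_one, map_one]; exact Submodule.map_id _
  mul_mem' := by
    rintro a b ⟨ha, ha'⟩ ⟨hb, hb'⟩
    refine ⟨fun i => ?_, fun i => ?_⟩
    · obtain ⟨j, hj⟩ := hb i
      obtain ⟨k, hk⟩ := ha j
      refine ⟨k, ?_⟩
      rw [map_mul, Module.End.mul_eq_comp, Submodule.map_comp, hj, hk]
    · obtain ⟨j, hj⟩ := ha' i
      obtain ⟨k, hk⟩ := hb' j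
      refine ⟨k, ?_⟩
      rw [mul_inv_rev, map_mul, Module.End.mul_eq_comp, Submodule.map_comp, hj, hk]
  inv_mem' := by
    rintro a ⟨ha, ha'⟩
    exact ⟨ha', by rw [inv_inv]; exact ha⟩

/-- **BOX A** -/
def BoxA (Q : QuadraticForm F (ι → F)) : Prop :=
  ∀ H : Subgroup (Cfsg.Omega F (⇑Q)), HD H → NTwo H → ∃ U, Dec Q U ∧ H ≤ StD Q U

/-- **BOX B1**: two decompositions are conjugate -/
def BoxB1 (Q : QuadraticForm F (ι → F)) : Prop :=
  ∀ U U', Dec Q U → Dec Q U' → ∃ g : Cfsg.Omega F (⇑Q), ∀ i, (U i).map (rep (inc (⇑Q)) g) = U' i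

/-- **BOX B2**: the stabiliser is solvable -/
def BoxB2 (Q : QuadraticForm F (ι → F)) : Prop :=
  ∀ U, Dec Q U → Group.IsSolvable (StD Q U)

/-- **BOX C**: `O₂(H) = 1` implies `H / Z = PΩ₈⁺(2)` -/
def BoxC (Q : QuadraticForm F (ι → F)) : Prop :=
  ∀ H : Subgroup (Cfsg.Omega F (⇑Q)), HD H → ¬ NTwo H →
    Nonempty (H.map (QuotientGroup.mk' (Subgroup.center (Cfsg.Omega F (⇑Q)))) ≃*
      Cfsg.POmega (ZMod 2) (Cfsg.quadFormPlus 4 (ZMod 2))) ∧
    ¬ 2 ^ 14 ∣ Nat.card (Cfsg.Omega F (⇑Q))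

/-- **BOX D1**: four subgroups over a Sylow `2`-subgroup -/
def BoxD1 (T : Type u) [Group T] : Prop :=
  ∀ P : Sylow 2 T, ∃ M : Fin 4 → Subgroup T, Function.Injective M ∧ (∀ i, (P : Subgroup T) ≤ M i) ∧
    (∀ i, (P : Subgroup T).relIndex (M i) = 3) ∧ ⨆ i, M i = ⊤

/-- the overgroups of index three of `P` centralising `z` -/
def MZ {S : Type u} [Group S] (P : Subgroup S) (z : S) : Set (Subgroup S) :=
  {M | P ≤ M ∧ P.relIndex M = 3 ∧ ∀ m ∈ M, m * z = z * m}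

/-- the overgroups of index three of `P` not centralising `z` -/
def MN {S : Type u} [Group S] (P : Subgroup S) (z : S) : Set (Subgroup S) :=
  {M | P ≤ M ∧ P.relIndex M = 3 ∧ ¬ ∀ m ∈ M, m * z = z * m}

/-- **BOX D** -/
def BoxD (S : Type u) [Group S] : Prop :=
  ∃ (P : Sylow 2 S) (z : S), z ≠ 1 ∧ z ∈ P ∧ (MZ (P : Subgroup S) z).encard ≤ 4 ∧ (MN (P : Subgroup S) z).encard ≤ 1

end Cfsg.Agent.H561.D4
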