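import Cfsg.Agent.H561.RV.Defs

/-!
# S4311: at most four classes of Hall subgroups imply the `S`-row (helper561)
-/

set_option autoImplicit false

namespace Cfsg.Agent.H561.D4

open Cfsg Subgroup Cfsg.Agent.H561.RV
open scoped Pointwise

variable {S : Type*} [Group S]

/-- the class of `H` -/
def cl (H : Subgroup S) : Set (Subgroup S) := {K | ∃ s : S, K = MulAut.conj s • H}

theorem mem_cl_self (H : Subgroup S) : H ∈ cl H := ⟨1, by rw [map_one, one_smul]⟩

theorem cl_eq_of_mem {H K : Subgroup S} (h : K ∈ cl H) : cl K = cl H := by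
  obtain ⟨s, rfl⟩ := h
  ext L
  constructor
  · rintro ⟨t, rfl⟩
    exact ⟨t * s, by rw [map_mul, mul_smul]⟩
  · rintro ⟨t, rfl⟩
    exact ⟨t * s⁻¹, by rw [map_mul, mul_smul, map_inv, inv_smul_smul]⟩

theorem smul_cl (φ : MulAut S) (H : Subgroup S) : φ • cl H = cl (φ • H) := by
  ext L
  rw [Set.mem_smul_set]
  constructor
  · rintro ⟨_, ⟨s, rfl⟩, rfl⟩
    exact ⟨φ s, smul_conj_smul φ s H⟩
  · rintro ⟨s, rfl⟩
    refine ⟨MulAut.conj (φ⁻¹ s) • H, ⟨_, rfl⟩, ?_⟩
    rw [smul_conj_smul]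
    have h1 : φ (φ⁻¹ s) = s := φ.apply_symm_apply s
    rw [h1]

theorem fixC_iff_cl {φ : MulAut S} {H : Subgroup S} : FixC φ H ↔ φ • cl H = cl H := by
  rw [fixC_iff, smul_cl]
  constructor
  · rintro ⟨s, hs⟩
    exact cl_eq_of_mem ⟨s, hs⟩
  · intro h
    have := mem_cl_self (φ • H)
    rw [h] at this
    exact this

/-- the classes of Hall `π`-subgroups -/
def Cls (π : Set ℕ) (S : Type*) [Group S] : Set (Set (Subgroup S)) := {c | ∃ H : Subgroup S, IsPiHall π H ∧ c = cl H}

theorem isPiHall_smul {π : Set ℕ} {H : Subgroup S} (h : IsPiHall π H) (φ : MulAut S) : IsPiHall π (φ • H) := by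
  have h1 : Nat.card (φ • H : Subgroup S) = Nat.card H := Nat.card_congr (Subgroup.equivSMul φ H).toEquiv.symm
  have h2 : (φ • H : Subgroup S).index = H.index := by
    have : (H.map (φ : S ≃* S).toMonoidHom).index = H.index :=
      index_map_of_bijective φ.bijective H
    exact this
  exact ⟨fun p hp hd => h.1 p hp (h1 ▸ hd), fun p hp hpi hd => h.2 p hp hpi (h2 ▸ hd)⟩

theorem smul_mem_cls {π : Set ℕ} (φ : MulAut S) {c : Set (Subgroup S)} (hc : c ∈ Cls π S) : φ • c ∈ Cls π S := by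
  obtain ⟨H, hH, rfl⟩ := hc
  exact ⟨φ • H, isPiHall_smul hH φ, smul_cl φ H⟩

/-- **at most four classes** -/
theorem srow_of_four [Finite S] {π : Set ℕ} (h4 : (Cls π S).ncard ≤ 4) : SRow π S := by
  intro X hX
  have hfin : Finite (MulAut S) := Finite.of_injective (fun f : MulAut S => (f : S → S)) DFunLike.coe_injective
  have hfinC : (Cls π S).Finite := Set.toFinite _
  -- for every prime a class whose orbit has size prime to `r`
  have key : ∀ r : ℕ, r.Prime → ∃ c ∈ Cls π S, ¬ r ∣ (MulAction.orbit X c).ncard := by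
    intro r hr
    have := Fact.mk hr
    obtain ⟨P⟩ : Nonempty (Sylow r X) := inferInstance
    obtain ⟨H, hH, hR⟩ := hX r hr ((P : Subgroup X).map X.subtype) (map_subtype_le _) (P.isPGroup'.map _)
    refine ⟨cl H, ⟨H, hH, rfl⟩, ?_⟩
    have h1 : (P : Subgroup X) ≤ MulAction.stabilizer X (cl H) := by
      intro x hx
      rw [MulAction.mem_stabilizer_iff]
      exact fixC_iff_cl.1 (hR (x : MulAut S) ⟨x, hx, rfl⟩)
    have h2 : (MulAction.orbit X (cl H)).ncard = (MulAction.stabilizer X (cl H)).index :=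
      (MulAction.index_stabilizer X (cl H)).symm
    rw [h2]
    intro hd
    exact P.not_dvd_index (hd.trans (index_dvd_of_le h1))
  have horb : ∀ c ∈ Cls π S, MulAction.orbit X c ⊆ Cls π S := by
    rintro c hc _ ⟨φ, rfl⟩
    exact smul_mem_cls (φ : MulAut S) hc
  have hfix : ∀ c ∈ Cls π S, (MulAction.orbit X c).ncard = 1 → ∃ H : Subgroup S, IsPiHall π H ∧ ∀ φ ∈ X, FixC φ H := by
    rintro c ⟨H, hH, rfl⟩ h1
    refine ⟨H, hH, fun φ hφ => fixC_iff_cl.2 ?_⟩
    obtain ⟨d, hd⟩ := Set.ncard_eq_one.1 h1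
    have h2 : (⟨φ, hφ⟩ : X) • cl H ∈ MulAction.orbit X (cl H) := MulAction.mem_orbit _ _
    have h3 : cl H ∈ MulAction.orbit X (cl H) := MulAction.mem_orbit_self _
    rw [hd, Set.mem_singleton_iff] at h2 h3
    exact h2.trans h3.symm
  obtain ⟨c, hc, hc2⟩ := key 2 Nat.prime_two
  have hle : ∀ c ∈ Cls π S, (MulAction.orbit X c).ncard ≤ 4 := fun c hc =>
    (Set.ncard_le_ncard (horb c hc) hfinC).trans h4
  have hpos : ∀ c ∈ Cls π S, 0 < (MulAction.orbit X c).ncard := fun c hc =>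
    (Set.ncard_pos (hfinC.subset (horb c hc))).2 ⟨c, MulAction.mem_orbit_self _⟩
  have h1 := hle c hc
  have h2 := hpos c hc
  rcases (show (MulAction.orbit X c).ncard = 1 ∨ (MulAction.orbit X c).ncard = 3 by omega) with h | h
  · exact hfix c hc h
  · obtain ⟨d, hd, hd3⟩ := key 3 Nat.prime_three
    refine hfix d hd ?_
    have hdis : Disjoint (MulAction.orbit X c) (MulAction.orbit X d) := by
      rw [Set.disjoint_left]
      intro x hx hy
      apply hd3
      rw [← MulAction.orbit_eq_iff.2 hy, MulAction.orbit_eq_iff.2 hx, h]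
    have h5 := Set.ncard_union_eq hdis (hfinC.subset (horb c hc)) (hfinC.subset (horb d hd))
    have h6 := Set.ncard_le_ncard (Set.union_subset (horb c hc) (horb d hd)) hfinC
    have h7 := hpos d hd
    omega

/-- the classes are represented by the Hall subgroups over a Sylow `2`-subgroup -/
theorem ncard_cls_le [Finite S] {π : Set ℕ} (h2 : 2 ∈ π) (P : Sylow 2 S) :
    (Cls π S).ncard ≤ {H : Subgroup S | IsPiHall π H ∧ (P : Subgroup S) ≤ H}.ncard := by
  have h1 : Cls π S ⊆ cl '' {H : Subgroup S | IsPiHall π H ∧ (P : Subgroup S) ≤ H} := by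
    rintro _ ⟨H, hH, rfl⟩
    obtain ⟨R, hR⟩ : ∃ R : Sylow 2 S, (R : Subgroup S) ≤ H := by
      obtain ⟨Q⟩ : Nonempty (Sylow 2 H) := inferInstance
      have h1 : ¬ 2 ∣ ((Q : Subgroup H).map H.subtype).index := by
        rw [index_map_subtype]
        intro hd
        rcases (Nat.prime_two.dvd_mul).1 hd with h | h
        · exact Q.not_dvd_index h
        · exact hH.2 2 Nat.prime_two h2 h
      exact ⟨(Q.isPGroup'.map H.subtype).toSylow h1, map_subtype_le _⟩
    obtain ⟨g, hg⟩ := MulAction.exists_smul_eq S R P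
    refine ⟨MulAut.conj g • H, ⟨isPiHall_smul hH _, ?_⟩, ?_⟩
    · rw [← hg]
      show MulAut.conj g • (R : Subgroup S) ≤ MulAut.conj g • H
      exact Subgroup.pointwise_smul_le_pointwise_smul_iff.2 hR
    · exact cl_eq_of_mem ⟨g, rfl⟩
  exact (Set.ncard_le_ncard h1 (Set.toFinite _)).trans (Set.ncard_image_le (Set.toFinite _))

end Cfsg.Agent.H561.D4
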