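import Cfsg.Agent.H473.D4.BoxN
import Cfsg.Agent.H561.D4.Hall
import Cfsg.Agent.S0293

/-!
# S4311, the row `PΩ₈⁺(q)`: BOX C from C1, C2, N (helper561)
-/

set_option autoImplicit false
set_option linter.unusedSectionVars false

namespace Cfsg.Agent.H561.D4

open Module QuadraticMap Cfsg.Agent.H167.OP Cfsg.Agent.H170.HL Cfsg.Agent.H170.HL.OmRow Cfsg.Agent.H556.Om
open Cfsg Subgroup Cfsg.Agent.H485.RV Cfsg.Agent.H561.RV

theorem card_POmega82 : Nat.card (Cfsg.POmega (ZMod 2) (Cfsg.quadFormPlus 4 (ZMod 2))) = 174182400 := by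
  have h1 := Cfsg.Agent.S0293.result (F := ZMod 2) (by rw [ZMod.card]) 4 (by norm_num)
  simp only [Finset.prod_range_succ, Finset.prod_range_zero] at h1
  norm_num at h1
  exact h1

section cover

variable {G : Type} [Group G] [Finite G]

/-- the order of a subgroup containing the kernel -/
theorem card_of_ker {Z H : Subgroup G} [Z.Normal] (hZH : Z ≤ H) :
    Nat.card H = Nat.card (H.map (QuotientGroup.mk' Z)) * Nat.card Z := by
  have h1 := Subgroup.card_mul_index (Z.subgroupOf H)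
  have h2 : Nat.card (Z.subgroupOf H) = Nat.card Z := Nat.card_congr (Subgroup.subgroupOfEquivOfLe hZH).toEquiv
  have h3 : (Z.subgroupOf H).index = Nat.card (H.map (QuotientGroup.mk' Z)) := by
    have h4 : Z.subgroupOf H = ((QuotientGroup.mk' Z).comp H.subtype).ker := by
      ext x
      rw [Subgroup.mem_subgroupOf, MonoidHom.mem_ker, MonoidHom.comp_apply, QuotientGroup.mk'_apply,
        QuotientGroup.eq_one_iff, Subgroup.subtype_apply]
    rw [h4, Subgroup.index_ker, MonoidHom.range_comp, H.range_subtype]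
  rw [← h1, h2, h3, mul_comm]

/-- the cover of a subgroup of the quotient by the centre -/
theorem exists_cover {Z : Subgroup G} [Z.Normal] (hZc : ∀ x ∈ Z, ∀ y : G, x * y = y * x) (Y : Subgroup (G ⧸ Z)) (T : Subgroup Y) :
    ∃ (L : Subgroup G) (f : L →* T), Function.Surjective f ∧ (∀ x, f x = 1 → ∀ y, x * y = y * x) ∧
      Nat.card f.ker = Nat.card Z := by
  let T' : Subgroup (G ⧸ Z) := T.map Y.subtype
  let eT : T ≃* T' := T.equivMapOfInjective Y.subtype Y.subtype_injective
  let f₀ : T'.comap (QuotientGroup.mk' Z) →* T' := (QuotientGroup.mk' Z).subgroupComap T'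
  have hf₀ : Function.Surjective f₀ :=
    MonoidHom.subgroupComap_surjective_of_surjective _ _ (QuotientGroup.mk'_surjective Z)
  let f : T'.comap (QuotientGroup.mk' Z) →* T := eT.symm.toMonoidHom.comp f₀
  have hf1 : ∀ x, f x = 1 ↔ (x : G) ∈ Z := by
    intro x
    have h1 : f x = 1 ↔ f₀ x = 1 := by
      show eT.symm (f₀ x) = 1 ↔ _
      rw [← map_one eT.symm]
      exact eT.symm.injective.eq_iff
    rw [h1, ← QuotientGroup.eq_one_iff (N := Z)]
    exact ⟨fun h => congrArg Subtype.val h, fun h => Subtype.ext h⟩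
  have hZL : Z ≤ T'.comap (QuotientGroup.mk' Z) := by
    intro x hx
    show (QuotientGroup.mk' Z) x ∈ T'
    rw [QuotientGroup.mk'_apply, (QuotientGroup.eq_one_iff x).2 hx]
    exact one_mem _
  refine ⟨T'.comap (QuotientGroup.mk' Z), f, eT.symm.surjective.comp hf₀, ?_, ?_⟩
  · intro x hx y
    exact Subtype.ext (hZc _ ((hf1 x).1 hx) _)
  · have h1 : f.ker = Z.subgroupOf (T'.comap (QuotientGroup.mk' Z)) := by
      ext x
      rw [MonoidHom.mem_ker, hf1, Subgroup.mem_subgroupOf]
    rw [h1]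
    exact Nat.card_congr (Subgroup.subgroupOfEquivOfLe hZL).toEquiv

end cover

variable {F : Type} [Field F] {ι : Type} [Fintype ι] [DecidableEq ι] {Q : QuadraticForm F (ι → F)}

/-- `Ω` in `GL₈` -/
theorem exists_gl8 (hι : Fintype.card ι = 8) :
    ∃ ρ : Cfsg.Omega F (⇑Q) →* Matrix.GeneralLinearGroup (Fin 8) F, Function.Injective ρ := by
  let e : ι ≃ Fin 8 := Fintype.equivFinOfCardEq hι
  let r : Matrix.GeneralLinearGroup ι F ≃* Matrix.GeneralLinearGroup (Fin 8) F :=
    Units.mapEquiv (Matrix.reindexAlgEquiv F F e).toMulEquiv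
  refine ⟨r.toMonoidHom.comp ((Cfsg.isometryGroup F (⇑Q)).subtype.comp (Cfsg.Omega F (⇑Q)).subtype), ?_⟩
  exact r.injective.comp (Subtype.val_injective.comp Subtype.val_injective)

/-- **BOX C** -/
theorem boxC_of [Finite F] (hC1 : BoxC1 Q) (hC2 : BoxC2 F) (hN : BoxN Q) : BoxC Q := by
  intro H hH hT
  have hfin : Finite (Cfsg.Omega F (⇑Q)) := inferInstance
  have hq := hH.q8
  obtain ⟨E, hF⟩ := hq.frame
  set Z := Subgroup.center (Cfsg.Omega F (⇑Q)) with hZ
  have hZ2 : Nat.card Z = 2 := H473.D4.card_center (H473.D4.q7 hq) hF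
  have hX := card_of_ker hH.cen
  rw [hZ2] at hX
  have hC := hC1 H hH hT
  set X := H.map (QuotientGroup.mk' Z) with hXdef
  obtain ⟨T, hTn, hTs, hTc, hTz⟩ := hC
  obtain ⟨a, b, ha, hb, h2, h3, -⟩ := hN
  have hci := H.card_mul_index
  have hX0 : Nat.card X ≠ 0 := Nat.card_pos.ne'
  have hi0 : H.index ≠ 0 := H.index_ne_zero_of_finite
  have hi2 : H.index.factorization 2 = 0 := by
    refine Nat.factorization_eq_zero_of_not_dvd fun hd => ?_
    exact Nat.not_coprime_of_dvd_of_dvd (by norm_num) hH.two hd hH.hall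
  have hi3 : H.index.factorization 3 = 0 := by
    refine Nat.factorization_eq_zero_of_not_dvd fun hd => ?_
    exact Nat.not_coprime_of_dvd_of_dvd (by norm_num) hH.three hd hH.hall
  have hfac : Nat.card (Cfsg.Omega F (⇑Q)) = Nat.card X * 2 * H.index := by rw [← hci, hX]
  have e2 : (Nat.card X).factorization 2 = 4 * b := by
    rw [hfac, Nat.factorization_mul (mul_ne_zero hX0 two_ne_zero) hi0, Nat.factorization_mul hX0 two_ne_zero,
      Finsupp.add_apply, Finsupp.add_apply, hi2, Nat.prime_two.factorization_self] at h2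
    omega
  have e3 : (Nat.card X).factorization 3 = 4 * a + 1 := by
    rw [hfac, Nat.factorization_mul (mul_ne_zero hX0 two_ne_zero) hi0, Nat.factorization_mul hX0 two_ne_zero,
      Finsupp.add_apply, Finsupp.add_apply, hi3, Nat.factorization_eq_zero_of_not_dvd (n := 2) (p := 3) (by norm_num)] at h3
    omega
  have hchar : (Nat.card X : F) ≠ 0 := by
    intro h0
    apply hH.char
    rw [hX, Nat.cast_mul, h0, zero_mul]
  obtain ⟨L, f, hfs, hfc, hfk⟩ := exists_cover (fun x hx y => (Subgroup.mem_center_iff.1 hx y).symm) X T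
  obtain ⟨ρ, hρ⟩ := exists_gl8 (Q := Q) hq.dim
  obtain ⟨e⟩ := hC2 X T hTn hTs hTc hTz hchar ⟨b, hb, e2⟩ ⟨a, ha, e3⟩
    ⟨L, inferInstance, f, ρ.comp L.subtype, hfs, hfc, hfk.trans hZ2, hρ.comp L.subtype_injective⟩
  refine ⟨⟨e⟩, ?_⟩
  have hcX : Nat.card X = 174182400 := (Nat.card_congr e.toEquiv).trans card_POmega82
  intro h14
  have h5 : 14 ≤ (Nat.card (Cfsg.Omega F (⇑Q))).factorization 2 :=
    (Nat.prime_two.pow_dvd_iff_le_factorization (by rw [hfac]; exact mul_ne_zero (mul_ne_zero hX0 two_ne_zero) hi0)).1 h14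
  rw [h2, ← e2] at h5
  have h6 : 2 ^ 13 ∣ Nat.card X := by
    rw [Nat.prime_two.pow_dvd_iff_le_factorization hX0]
    omega
  rw [hcX] at h6
  revert h6
  norm_num

end Cfsg.Agent.H561.D4
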