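import Cfsg.Agent.H561.D4.Base

/-!
# S4311, the row `PΩ₈⁺(q)`: the monomial 2-group `PM` (helper561)

`PP` : the Sylow 2-subgroup `D₈ wr C₂` of `Sym(Fin 2 × A4)`; `PM` : the monomial elements of `Ω` with permutation in `PP`.
-/

set_option autoImplicit false
set_option linter.unusedSectionVars false

namespace Cfsg.Agent.H561.D4

open Module QuadraticMap Cfsg.Agent.H167.OP Cfsg.Agent.H170.HL Cfsg.Agent.H170.HL.OmRow Cfsg.Agent.H556.Om
open Cfsg Subgroup Cfsg.Agent.H485.RV Cfsg.Agent.H561.RV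

theorem a_inv {X : Type*} (σ : Equiv.Perm X) (x : X) : σ (σ⁻¹ x) = x := σ.apply_symm_apply x

theorem inv_a {X : Type*} (σ : Equiv.Perm X) (x : X) : σ⁻¹ (σ x) = x := σ.symm_apply_apply x

/-- identity or the exchange of the two coordinates -/
def lin (b : Bool) (a : A4) : A4 := if b then (a.2, a.1) else a

theorem lin_lin (b c : Bool) (a : A4) : lin b (lin c a) = lin (xor b c) a := by
  cases b <;> cases c <;> simp [lin]

theorem lin_add (b : Bool) (a a' : A4) : lin b (a + a') = lin b a + lin b a' := by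
  cases b <;> simp [lin]

/-- the permutations `(k, a) ↦ (τ k, lin (b k) a + c k)` -/
def IsPP (σ : Equiv.Perm (Fin 2 × A4)) : Prop :=
  ∃ (τ : Equiv.Perm (Fin 2)) (b : Fin 2 → Bool) (c : Fin 2 → A4), ∀ k a, σ (k, a) = (τ k, lin (b k) a + c k)

theorem IsPP.mul {σ σ' : Equiv.Perm (Fin 2 × A4)} (h : IsPP σ) (h' : IsPP σ') : IsPP (σ * σ') := by
  obtain ⟨τ, b, c, h⟩ := h
  obtain ⟨τ', b', c', h'⟩ := h'
  refine ⟨τ * τ', fun k => xor (b (τ' k)) (b' k), fun k => lin (b (τ' k)) (c' k) + c (τ' k), fun k a => ?_⟩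
  rw [Equiv.Perm.mul_apply, h', h, Equiv.Perm.mul_apply, lin_add, lin_lin, add_assoc]

theorem IsPP.inv {σ : Equiv.Perm (Fin 2 × A4)} (h : IsPP σ) : IsPP σ⁻¹ := by
  obtain ⟨τ, b, c, h⟩ := h
  refine ⟨τ⁻¹, fun k => b (τ⁻¹ k), fun k => lin (b (τ⁻¹ k)) (c (τ⁻¹ k)), fun k a => ?_⟩
  rw [Equiv.Perm.inv_eq_iff_eq, h, lin_add, lin_lin, lin_lin, a_inv]
  show (k, a) = (k, lin (xor (b (τ⁻¹ k)) (b (τ⁻¹ k))) a + lin (xor (b (τ⁻¹ k)) (b (τ⁻¹ k))) (c (τ⁻¹ k)) + c (τ⁻¹ k))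
  have h1 : ∀ x : Bool, xor x x = false := by decide
  rw [h1]
  have h2 : ∀ x y : A4, lin false x + lin false y + y = x := by
    intro x y
    simp only [lin, Bool.false_eq_true, if_false]
    rw [add_assoc, CharTwo.add_self_eq_zero, add_zero]
  rw [h2]

/-- the Sylow 2-subgroup `D₈ wr C₂` of `Sym(8)` -/
def PP : Subgroup (Equiv.Perm (Fin 2 × A4)) where
  carrier := {σ | IsPP σ}
  one_mem' := ⟨1, fun _ => false, 0, fun k a => by simp [lin]⟩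
  mul_mem' := fun h h' => h.mul h'
  inv_mem' := fun h => h.inv

theorem mem_PP {σ : Equiv.Perm (Fin 2 × A4)} : σ ∈ PP ↔ IsPP σ := Iff.rfl

/-- the permutation with parameters `τ, b, c` -/
def pp (τ : Equiv.Perm (Fin 2)) (b : Fin 2 → Bool) (c : Fin 2 → A4) : Equiv.Perm (Fin 2 × A4) where
  toFun x := (τ x.1, lin (b x.1) x.2 + c x.1)
  invFun x := (τ⁻¹ x.1, lin (b (τ⁻¹ x.1)) (x.2 + c (τ⁻¹ x.1)))
  left_inv x := by
    obtain ⟨k, a⟩ := x
    simp only [inv_a]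
    have h2 : ∀ x y : A4, x + y + y = x := by
      intro x y
      rw [add_assoc, CharTwo.add_self_eq_zero, add_zero]
    rw [h2, lin_lin]
    cases b k <;> simp [lin]
  right_inv x := by
    obtain ⟨k, a⟩ := x
    simp only [a_inv]
    have h2 : ∀ x y : A4, x + y + y = x := by
      intro x y
      rw [add_assoc, CharTwo.add_self_eq_zero, add_zero]
    rw [lin_lin]
    have h3 : ∀ (x : Bool) (y : A4), lin (xor x x) y = y := by
      intro x y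
      cases x <;> simp [lin]
    rw [h3, h2]

theorem pp_apply (τ : Equiv.Perm (Fin 2)) (b : Fin 2 → Bool) (c : Fin 2 → A4) (k : Fin 2) (a : A4) :
    pp τ b c (k, a) = (τ k, lin (b k) a + c k) := rfl

theorem pp_mem (τ : Equiv.Perm (Fin 2)) (b : Fin 2 → Bool) (c : Fin 2 → A4) : pp τ b c ∈ PP := ⟨τ, b, c, fun _ _ => rfl⟩

theorem mem_PP_iff {σ : Equiv.Perm (Fin 2 × A4)} : σ ∈ PP ↔ ∃ τ b c, σ = pp τ b c := by
  constructor
  · rintro ⟨τ, b, c, h⟩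
    exact ⟨τ, b, c, Equiv.ext fun x => h x.1 x.2⟩
  · rintro ⟨τ, b, c, rfl⟩
    exact pp_mem τ b c

/-- every element of `PP` has order dividing `8` -/
theorem pp_pow {σ : Equiv.Perm (Fin 2 × A4)} (h : σ ∈ PP) : σ ^ 8 = 1 := by
  obtain ⟨τ, b, c, rfl⟩ := mem_PP_iff.1 h
  have h1 : pp τ b c ^ 2 ∈ PP ∧ ∀ k a, ((pp τ b c ^ 2) (k, a)).1 = k := by
    refine ⟨PP.pow_mem h 2, fun k a => ?_⟩
    rw [pow_two, Equiv.Perm.mul_apply, pp_apply, pp_apply]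
    show τ (τ k) = k
    clear h a b c
    revert k τ
    decide
  obtain ⟨h1, h2⟩ := h1
  obtain ⟨τ', b', c', h3⟩ := mem_PP_iff.1 h1
  have h4 : ∀ k, τ' k = k := by
    intro k
    have := h2 k 0
    rw [h3] at this
    exact this
  have h5 : ∀ k a, (pp τ' b' c' ^ 2) (k, a) = (k, a + (c' k + lin (b' k) (c' k))) := by
    intro k a
    rw [pow_two, Equiv.Perm.mul_apply, pp_apply, pp_apply, h4, lin_add, lin_lin]
    have h6 : ∀ (x : Bool) (y : A4), lin (xor x x) y = y := by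
      intro x y
      cases x <;> simp [lin]
    dsimp only
    rw [h4, h6, add_assoc, add_comm (lin _ _)]
  have h7 : pp τ b c ^ 8 = (pp τ' b' c' ^ 2) * (pp τ' b' c' ^ 2) := by
    rw [← h3, ← pow_mul, ← pow_add]
  rw [h7]
  ext x : 1
  obtain ⟨k, a⟩ := x
  rw [Equiv.Perm.mul_apply, h5, h5, add_assoc, CharTwo.add_self_eq_zero, add_zero, Equiv.Perm.one_apply]

variable {F : Type} [Field F] {ι : Type} [Fintype ι] [DecidableEq ι] {Q : QuadraticForm F (ι → F)}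
  {E : Fin 2 × A4 → ι → F}

/-- the monomial 2-group -/
def PM (h2 : (2 : F) ≠ 0) (hF : Frame (polarBilin Q) E) : Subgroup (Cfsg.Omega F (⇑Q)) where
  carrier := {x | ∃ (s : Fin 2 × A4 → F) (σ : Equiv.Perm (Fin 2 × A4)), (∀ j, s j * s j = 1) ∧ σ ∈ PP ∧
    rep (inc (⇑Q)) x = mono (polarBilin Q) E s σ}
  one_mem' := ⟨fun _ => 1, 1, fun _ => one_mul 1, PP.one_mem, by
    rw [map_one]
    exact (mono_one hF h2 (fun _ => rfl) fun j => rfl).symm⟩
  mul_mem' := by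
    rintro x y ⟨s, σ, hs, hσ, hx⟩ ⟨t, τ, ht, hτ, hy⟩
    refine ⟨fun j => t j * s (τ j), σ * τ, fun j => ?_, PP.mul_mem hσ hτ, ?_⟩
    · rw [mul_mul_mul_comm, ht, hs, one_mul]
    · rw [map_mul, hx, hy, mono_mul hF h2]
      rfl
  inv_mem' := by
    rintro x ⟨s, σ, hs, hσ, hx⟩
    refine ⟨fun j => s (σ⁻¹ j), σ⁻¹, fun j => hs _, PP.inv_mem hσ, ?_⟩
    have h3 : mono (polarBilin Q) E (fun j => s (σ⁻¹ j)) (σ⁻¹ : Equiv.Perm _) * rep (inc (⇑Q)) x = 1 := by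
      rw [hx, mono_mul hF h2]
      refine mono_one hF h2 (fun j => ?_) fun j => ?_
      · rw [inv_a, hs]
      · exact inv_a σ j
    have h4 : rep (inc (⇑Q)) x * rep (inc (⇑Q)) x⁻¹ = 1 := by rw [← map_mul, mul_inv_cancel, map_one]
    calc rep (inc (⇑Q)) x⁻¹ = (mono (polarBilin Q) E (fun j => s (σ⁻¹ j)) (σ⁻¹ : Equiv.Perm _) *
          rep (inc (⇑Q)) x) * rep (inc (⇑Q)) x⁻¹ := by rw [h3, one_mul]
      _ = _ := by rw [mul_assoc, h4, mul_one]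

theorem mem_PM {h2 : (2 : F) ≠ 0} {hF : Frame (polarBilin Q) E} {x : Cfsg.Omega F (⇑Q)} :
    x ∈ PM h2 hF ↔ ∃ (s : Fin 2 × A4 → F) (σ : Equiv.Perm (Fin 2 × A4)), (∀ j, s j * s j = 1) ∧ σ ∈ PP ∧
      rep (inc (⇑Q)) x = mono (polarBilin Q) E s σ := Iff.rfl

theorem rep_pow_mono (h2 : (2 : F) ≠ 0) (hF : Frame (polarBilin Q) E) {x : Cfsg.Omega F (⇑Q)}
    {s : Fin 2 × A4 → F} {σ : Equiv.Perm (Fin 2 × A4)} (hs : ∀ j, s j * s j = 1)
    (hx : rep (inc (⇑Q)) x = mono (polarBilin Q) E s σ) (n : ℕ) :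
    ∃ t : Fin 2 × A4 → F, (∀ j, t j * t j = 1) ∧
      rep (inc (⇑Q)) (x ^ n) = mono (polarBilin Q) E t (σ ^ n : Equiv.Perm (Fin 2 × A4)) := by
  induction n with
  | zero =>
    refine ⟨fun _ => 1, fun _ => one_mul 1, ?_⟩
    rw [pow_zero, pow_zero, map_one]
    exact (mono_one hF h2 (fun _ => rfl) fun j => rfl).symm
  | succ n ih =>
    obtain ⟨t, ht, hn⟩ := ih
    refine ⟨fun j => s j * t (σ j), fun j => ?_, ?_⟩
    · rw [mul_mul_mul_comm, hs, ht, one_mul]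
    · rw [pow_succ, map_mul, hn, hx, mono_mul hF h2, pow_succ]
      rfl

theorem PM_isPGroup (h2 : (2 : F) ≠ 0) (hF : Frame (polarBilin Q) E) : IsPGroup 2 (PM h2 hF) := by
  rintro ⟨x, s, σ, hs, hσ, hx⟩
  refine ⟨4, Subtype.ext ?_⟩
  show x ^ 2 ^ 4 = 1
  obtain ⟨t, ht, h8⟩ := rep_pow_mono h2 hF hs hx 8
  rw [pp_pow hσ] at h8
  have h3 : x ^ 2 ^ 4 = x ^ 8 * x ^ 8 := by rw [← pow_add]; norm_num
  rw [h3]
  apply rep_inj
  rw [map_mul, h8, mono_mul hF h2, map_one]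
  exact mono_one hF h2 (fun j => ht j) fun j => rfl

/-- the sign changes with two `-1` belong to `PM` -/
theorem sg_mem_PM (h2 : (2 : F) ≠ 0) (hF : Frame (polarBilin Q) E) {j k : Fin 2 × A4} {x : Cfsg.Omega F (⇑Q)}
    (hx : rep (inc (⇑Q)) x = mono (polarBilin Q) E (H556.Om.sg F j k) id) : x ∈ PM h2 hF :=
  ⟨_, 1, fun i => by
    simp only [H556.Om.sg]
    split_ifs <;> norm_num, PP.one_mem, hx⟩

/-- the even permutations in `PP` belong to `PM` -/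
theorem perm_mem_PM (h2 : (2 : F) ≠ 0) (hF : Frame (polarBilin Q) E) {σ : Equiv.Perm (Fin 2 × A4)} (hσ : σ ∈ PP)
    {x : Cfsg.Omega F (⇑Q)} (hx : rep (inc (⇑Q)) x = mono (polarBilin Q) E (fun _ => 1) σ) : x ∈ PM h2 hF :=
  ⟨_, σ, fun _ => one_mul 1, hσ, hx⟩

theorem sign_pp (τ : Equiv.Perm (Fin 2)) (b : Bool) (c : Fin 2 → A4) :
    Equiv.Perm.sign (pp τ (fun _ => b) c) = 1 := by
  revert τ b c
  decide

end Cfsg.Agent.H561.D4
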